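import Cfsg.Agent.Lib.PiHom.Local

/-!
# The count of `π'`-elements

Under the local hypothesis, `H` controls fusion of all its elements, and for each `π`-element `u`
the number of `π'`-elements commuting with `u`, times `|H|`, is the number of `g` with
`g⁻¹ u g ∈ H`.
-/

set_option autoImplicit false

namespace Cfsg.Agent.Lib.PiHom

open Cfsg
open scoped _root_.Classical

universe u

variable {G : Type u} [Group G] {π : Set ℕ}

/-- A non-central element has a non-central primary power. -/
lemma exists_primary [Finite G] : ∀ (n : ℕ) (u : G), orderOf u = n → u ∉ Subgroup.center G →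
    ∃ (m p k : ℕ), p.Prime ∧ orderOf (u ^ m) = p ^ k ∧ u ^ m ∉ Subgroup.center G := by
  intro n
  induction n using Nat.strong_induction_on with
  | _ n ih =>
    intro u hn hu
    have hu1 : orderOf u ≠ 1 := by
      rw [Ne, orderOf_eq_one_iff]
      rintro rfl
      exact hu (Subgroup.one_mem _)
    obtain ⟨p, hp, hd⟩ := Nat.exists_prime_and_dvd hu1
    let σ : Set ℕ := {p}
    have hsplit := piP_mul_sigP σ u
    by_cases ha : piP σ u ∈ Subgroup.center G
    · have hb : sigP σ u ∉ Subgroup.center G := by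
        intro hb
        apply hu
        rw [← hsplit]
        exact Subgroup.mul_mem _ ha hb
      have hd1 : orderOf (sigP σ u) ∣ orderOf u := orderOf_pow_dvd _
      have hlt : orderOf (sigP σ u) < n := by
        rw [← hn]
        apply lt_of_le_of_ne (Nat.le_of_dvd (orderOf_pos u) hd1)
        intro he
        exact (sigE_sigP σ u) p hp (by rw [he]; exact hd) (Set.mem_singleton p)
      obtain ⟨m, q, k, hq, hk, hm⟩ := ih _ hlt (sigP σ u) rfl hb
      refine ⟨expS (G := G) σ * m, q, k, hq, ?_, ?_⟩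
      · rw [pow_mul]
        exact hk
      · rw [pow_mul]
        exact hm
    · refine ⟨expP (G := G) σ, p, (orderOf (piP σ u)).primeFactorsList.length, hp, ?_, ha⟩
      apply Nat.eq_prime_pow_of_unique_prime_dvd (orderOf_pos _).ne'
      intro q hq hqd
      exact piE_piP σ u q hq hqd

variable [Finite G] {H : Subgroup G}

/-- Factorization of a conjugating element. -/
lemma fac_local (hH : HallData π H) (hE : HomE π G) {p k : ℕ} (hp : p.Prime) {u₁ : G}
    (hu₁ : u₁ ∈ H) (hk : orderOf u₁ = p ^ k) {K : Subgroup G} (hK : LocalS π H u₁ K) {u : G}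
    (hu : u ∈ H) (huc : u * u₁ = u₁ * u) {g : G} (hg1 : g⁻¹ * u₁ * g ∈ H) (hg : g⁻¹ * u * g ∈ H) :
    ∃ c ∈ K, ∃ h ∈ H, g = c * h ∧ c⁻¹ * u * c = u := by
  obtain ⟨h₁, hh₁, he⟩ := fuse_pelt hH hE hp hu₁ hk g hg1
  have hcc : (g * h₁⁻¹) * u₁ = u₁ * (g * h₁⁻¹) := by
    have h1 : u₁ * g = g * (h₁⁻¹ * u₁ * h₁) := by
      rw [← he]
      group
    calc g * h₁⁻¹ * u₁ = g * (h₁⁻¹ * u₁ * h₁) * h₁⁻¹ := by group
      _ = u₁ * g * h₁⁻¹ := by rw [← h1]
      _ = u₁ * (g * h₁⁻¹) := by group
  obtain ⟨c, hc, w, hw, hwc, hfac⟩ := hK.fact _ hcc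
  refine ⟨c, hc, w * h₁, H.mul_mem hw hh₁, ?_, ?_⟩
  · calc g = (g * h₁⁻¹) * h₁ := by group
      _ = c * (w * h₁) := by rw [hfac]; group
  · have hv : c⁻¹ * u * c ∈ H := by
      have e : c⁻¹ * u * c = w * (h₁ * (g⁻¹ * u * g) * h₁⁻¹) * w⁻¹ := by
        have hc' : c = g * h₁⁻¹ * w⁻¹ := by
          rw [hfac]
          group
        rw [hc']
        group
      rw [e]
      exact H.mul_mem (H.mul_mem hw (H.mul_mem (H.mul_mem hh₁ hg) (H.inv_mem hh₁))) (H.inv_mem hw)
    have hz : (c⁻¹ * u * c) * u⁻¹ ∈ K := by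
      have h1 : u * c * u⁻¹ ∈ K := by
        rw [hK.mem] at hc ⊢
        constructor
        · have hc1 := hc.1
          calc u * c * u⁻¹ * u₁ = u * c * (u⁻¹ * u₁ * u) * u⁻¹ := by group
            _ = u * c * u₁ * u⁻¹ := by
              have : u⁻¹ * u₁ * u = u₁ := by
                rw [mul_assoc, ← huc]
                group
              rw [this]
            _ = u * (c * u₁) * u⁻¹ := by group
            _ = u * u₁ * c * u⁻¹ := by rw [hc1]; group
            _ = u₁ * (u * c * u⁻¹) := by rw [huc]; group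
        · exact sigE_conj hc.2 u
      have e : (c⁻¹ * u * c) * u⁻¹ = c⁻¹ * (u * c * u⁻¹) := by group
      rw [e]
      exact K.mul_mem (K.inv_mem hc) h1
    have hzH : (c⁻¹ * u * c) * u⁻¹ ∈ H := H.mul_mem hv (H.inv_mem hu)
    have h1 : (c⁻¹ * u * c) * u⁻¹ = 1 :=
      eq_one_of_piE_sigE (hH.pi _ hzH) ((hK.mem _).mp hz).2
    exact mul_inv_eq_one.mp h1

/-- The local hypothesis. -/
def Loc (π : Set ℕ) (H : Subgroup G) : Prop :=
  ∀ u ∈ H, ∀ p k : ℕ, p.Prime → orderOf u = p ^ k → u ∉ Subgroup.center G →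
    ∃ K : Subgroup G, LocalS π H u K

/-- `H` controls fusion of all its elements. -/
theorem fus (hH : HallData π H) (hE : HomE π G) (hL : Loc π H) {u : G} (hu : u ∈ H) {g : G}
    (hg : g⁻¹ * u * g ∈ H) : ∃ h ∈ H, g⁻¹ * u * g = h⁻¹ * u * h := by
  by_cases hc : u ∈ Subgroup.center G
  · refine ⟨1, H.one_mem, ?_⟩
    have := Subgroup.mem_center_iff.mp hc g⁻¹
    simp only [inv_one, one_mul, mul_one]
    rw [this]
    group
  obtain ⟨m, p, k, hp, hk, hm⟩ := exists_primary _ u rfl hc
  obtain ⟨K, hK⟩ := hL _ (H.pow_mem hu m) p k hp hk hm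
  have hg1 : g⁻¹ * u ^ m * g ∈ H := by
    have : g⁻¹ * u ^ m * g = (g⁻¹ * u * g) ^ m := by
      have := conj_pow (a := g⁻¹) (b := u) (i := m)
      simpa using this.symm
    rw [this]
    exact H.pow_mem hg m
  obtain ⟨c, hc', h, hh, hgeq, hcu⟩ := fac_local hH hE hp (H.pow_mem hu m) hk hK hu
    ((Commute.refl u).pow_right m) hg1 hg
  refine ⟨h, hh, ?_⟩
  rw [hgeq]
  calc (c * h)⁻¹ * u * (c * h) = h⁻¹ * (c⁻¹ * u * c) * h := by group
    _ = h⁻¹ * u * h := by rw [hcu]

variable [Fintype G]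

/-- The number of `g` with `g⁻¹ u g ∈ H`. -/
noncomputable def Rr (H : Subgroup G) (u : G) : ℕ :=
  (Finset.univ.filter (fun g : G => g⁻¹ * u * g ∈ H)).card

/-- The number of `π'`-elements commuting with `u`. -/
noncomputable def Tt (π : Set ℕ) (u : G) : ℕ :=
  (Finset.univ.filter (fun x : G => SigE π x ∧ x * u = u * x)).card

/-- The elements of `H`. -/
noncomputable def Hf (H : Subgroup G) : Finset G := Finset.univ.filter (fun x : G => x ∈ H)

lemma Rr_conj (b u : G) : Rr H (b * u * b⁻¹) = Rr H u := by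
  unfold Rr
  apply Finset.card_bij (fun g _ => b⁻¹ * g)
  · intro g hg
    simp only [Finset.mem_filter, Finset.mem_univ, true_and] at hg ⊢
    convert hg using 1
    group
  · intro a _ c _ h
    exact mul_left_cancel h
  · intro g hg
    refine ⟨b * g, ?_, by group⟩
    simp only [Finset.mem_filter, Finset.mem_univ, true_and] at hg ⊢
    convert hg using 1
    group

lemma Tt_conj (b u : G) : Tt π (b * u * b⁻¹) = Tt π u := by
  unfold Tt
  apply Finset.card_bij (fun x _ => b⁻¹ * x * b)
  · intro x hx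
    simp only [Finset.mem_filter, Finset.mem_univ, true_and] at hx ⊢
    refine ⟨?_, ?_⟩
    · have := sigE_conj hx.1 b⁻¹
      simpa using this
    · have h := hx.2
      calc b⁻¹ * x * b * u = b⁻¹ * (x * (b * u * b⁻¹)) * b := by group
        _ = b⁻¹ * ((b * u * b⁻¹) * x) * b := by rw [h]
        _ = u * (b⁻¹ * x * b) := by group
  · intro a _ c _ h
    have : b * (b⁻¹ * a * b) * b⁻¹ = b * (b⁻¹ * c * b) * b⁻¹ := by rw [h]
    simpa [mul_assoc] using this
  · intro x hx
    simp only [Finset.mem_filter, Finset.mem_univ, true_and] at hx ⊢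
    refine ⟨b * x * b⁻¹, ⟨sigE_conj hx.1 b, ?_⟩, by group⟩
    have h := hx.2
    calc b * x * b⁻¹ * (b * u * b⁻¹) = b * (x * u) * b⁻¹ := by group
      _ = b * (u * x) * b⁻¹ := by rw [h]
      _ = b * u * b⁻¹ * (b * x * b⁻¹) := by group

/-- The local count for an element of `H` outside the centre. -/
lemma count_local (hH : HallData π H) (hE : HomE π G) (hL : Loc π H) {u : G} (hu : u ∈ H)
    (hc : u ∉ Subgroup.center G) : Rr H u = Tt π u * (Hf H).card := by
  obtain ⟨m, p, k, hp, hk, hm⟩ := exists_primary _ u rfl hc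
  obtain ⟨K, hK⟩ := hL _ (H.pow_mem hu m) p k hp hk hm
  unfold Rr Tt
  rw [← Finset.card_product]
  symm
  apply Finset.card_bij (fun q _ => q.1 * q.2)
  · rintro ⟨x, h⟩ hq
    simp only [Finset.mem_product, Finset.mem_filter, Finset.mem_univ, true_and, Hf] at hq ⊢
    obtain ⟨⟨hx1, hx2⟩, hh⟩ := hq
    have : (x * h)⁻¹ * u * (x * h) = h⁻¹ * u * h := by
      calc (x * h)⁻¹ * u * (x * h) = h⁻¹ * (x⁻¹ * (u * x)) * h := by group
        _ = h⁻¹ * u * h := by rw [← hx2]; group
    rw [this]
    exact H.mul_mem (H.mul_mem (H.inv_mem hh) hu) hh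
  · rintro ⟨x₁, h₁⟩ h1 ⟨x₂, h₂⟩ h2 he
    simp only [Finset.mem_product, Finset.mem_filter, Finset.mem_univ, true_and, Hf] at h1 h2
    obtain ⟨⟨hs1, hc1⟩, hh1⟩ := h1
    obtain ⟨⟨hs2, hc2⟩, hh2⟩ := h2
    simp only at he
    have hx1K : x₁ ∈ K := (hK.mem _).mpr ⟨(Commute.pow_right hc1 m).eq, hs1⟩
    have hx2K : x₂ ∈ K := (hK.mem _).mpr ⟨(Commute.pow_right hc2 m).eq, hs2⟩
    have hz : x₂⁻¹ * x₁ = h₂ * h₁⁻¹ := by
      have : x₁ = x₂ * h₂ * h₁⁻¹ := by
        rw [← he]
        group
      rw [this]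
      group
    have hz1 : x₂⁻¹ * x₁ = 1 := by
      apply eq_one_of_piE_sigE (π := π)
      · rw [hz]
        exact hH.pi _ (H.mul_mem hh2 (H.inv_mem hh1))
      · exact ((hK.mem _).mp (K.mul_mem (K.inv_mem hx2K) hx1K)).2
    have e1 : x₁ = x₂ := by
      have := inv_mul_eq_one.mp hz1
      exact this.symm
    subst e1
    have e2 : h₁ = h₂ := mul_left_cancel he
    rw [e2]
  · intro g hg
    simp only [Finset.mem_filter, Finset.mem_univ, true_and] at hg
    have hg1 : g⁻¹ * u ^ m * g ∈ H := by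
      have : g⁻¹ * u ^ m * g = (g⁻¹ * u * g) ^ m := by
        have := conj_pow (a := g⁻¹) (b := u) (i := m)
        simpa using this.symm
      rw [this]
      exact H.pow_mem hg m
    obtain ⟨c, hc', h, hh, hgeq, hcu⟩ := fac_local hH hE hp (H.pow_mem hu m) hk hK hu
      ((Commute.refl u).pow_right m) hg1 hg
    refine ⟨(c, h), ?_, hgeq.symm⟩
    simp only [Finset.mem_product, Finset.mem_filter, Finset.mem_univ, true_and, Hf]
    refine ⟨⟨((hK.mem _).mp hc').2, ?_⟩, hh⟩
    have : u * c = c * u := by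
      calc u * c = c * (c⁻¹ * u * c) := by group
        _ = c * u := by rw [hcu]
    exact this.symm

/-- The `π`-elements. -/
noncomputable def Pif (π : Set ℕ) : Finset G := Finset.univ.filter (fun x : G => PiE π x)

lemma fiber_card {u : G} (hu : PiE π u) :
    (Finset.univ.filter (fun x : G => piP π x = u)).card = Tt π u := by
  unfold Tt
  apply Finset.card_bij (fun x _ => sigP π x)
  · intro x hx
    simp only [Finset.mem_filter, Finset.mem_univ, true_and] at hx ⊢
    refine ⟨sigE_sigP π x, ?_⟩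
    rw [← hx]
    exact (commute_piP_sigP π x).symm.eq
  · intro a ha c hc he
    simp only [Finset.mem_filter, Finset.mem_univ, true_and] at ha hc
    rw [← piP_mul_sigP π a, ← piP_mul_sigP π c, ha, hc, he]
  · intro v hv
    simp only [Finset.mem_filter, Finset.mem_univ, true_and] at hv
    refine ⟨u * v, ?_, ?_⟩
    · simp only [Finset.mem_filter, Finset.mem_univ, true_and]
      exact piP_mul_of_commute hu hv.1 hv.2.symm
    · exact sigP_mul_of_commute hu hv.1 hv.2.symm

lemma sum_piP {R : Type*} [CommSemiring R] (f : G → R) :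
    ∑ x, f (piP π x) = ∑ u ∈ Pif π, (Tt π u : R) * f u := by
  have h := Finset.sum_fiberwise_of_maps_to (s := Finset.univ) (t := (Pif π : Finset G))
    (g := fun x => piP π x) (f := fun x => f (piP π x)) (by
      intro x _
      simp only [Pif, Finset.mem_filter, Finset.mem_univ, true_and]
      exact piE_piP π x)
  rw [← h]
  apply Finset.sum_congr rfl
  intro u hu
  have hu' : PiE π u := (Finset.mem_filter.mp hu).2
  rw [Finset.sum_congr rfl (fun x hx => by rw [(Finset.mem_filter.mp hx).2]), Finset.sum_const,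
    nsmul_eq_mul, fiber_card hu']

lemma sum_Rr (hpi : ∀ x ∈ H, PiE π x) {R : Type*} [CommSemiring R] (f : G → R) :
    ∑ u ∈ Pif π, (Rr H u : R) * f u = ∑ g : G, ∑ v ∈ Hf H, f (g * v * g⁻¹) := by
  have h1 : ∀ u : G, (Rr H u : R) * f u = ∑ g : G, if g⁻¹ * u * g ∈ H then f u else 0 := by
    intro u
    rw [← Finset.sum_filter, Finset.sum_const, nsmul_eq_mul]
    rfl
  rw [Finset.sum_congr rfl (fun u _ => h1 u), Finset.sum_comm]
  apply Finset.sum_congr rfl
  intro g _
  rw [← Finset.sum_filter]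
  apply Finset.sum_bij' (fun u _ => g⁻¹ * u * g) (fun v _ => g * v * g⁻¹)
  · intro u hu
    simp only [Finset.mem_filter, Finset.mem_univ, true_and, Hf, Pif] at hu ⊢
    exact hu.2
  · intro v hv
    simp only [Finset.mem_filter, Finset.mem_univ, true_and, Hf, Pif] at hv ⊢
    refine ⟨piE_conj (hpi v hv) g, ?_⟩
    have : g⁻¹ * (g * v * g⁻¹) * g = v := by group
    rw [this]
    exact hv
  · intro u _
    group
  · intro v _
    group
  · intro u _
    have : g * (g⁻¹ * u * g) * g⁻¹ = u := by group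
    rw [this]

/-- **The count**. -/
theorem main_count (hH : HallData π H) (hE : HomE π G) (hL : Loc π H) :
    ∀ u ∈ Pif (G := G) π, Rr H u = Tt π u * (Hf H).card := by
  have hnc : ∀ u ∈ Pif (G := G) π, u ∉ Subgroup.center G → Rr H u = Tt π u * (Hf H).card := by
    intro u hu hc
    have hu' : PiE π u := (Finset.mem_filter.mp hu).2
    obtain ⟨b, hb⟩ := hH.conj (Subgroup.zpowers u) (piE_zpowers hu')
    have hv := hb u (Subgroup.mem_zpowers u)
    have hvc : b⁻¹ * u * b ∉ Subgroup.center G := by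
      intro hz
      apply hc
      have : u = b * (b⁻¹ * u * b) * b⁻¹ := by group
      rw [this]
      exact Subgroup.Normal.conj_mem inferInstance _ hz b
    have h1 := count_local hH hE hL hv hvc
    have e := Rr_conj (H := H) b (b⁻¹ * u * b)
    have e' := Tt_conj (π := π) b (b⁻¹ * u * b)
    have e0 : b * (b⁻¹ * u * b) * b⁻¹ = u := by group
    rw [e0] at e e'
    rw [e, e', h1]
  have hcH : ∀ u ∈ Pif (G := G) π, u ∈ Subgroup.center G → u ∈ H := by
    intro u hu hc
    have hu' : PiE π u := (Finset.mem_filter.mp hu).2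
    obtain ⟨b, hb⟩ := hH.conj (Subgroup.zpowers u) (piE_zpowers hu')
    have hv := hb u (Subgroup.mem_zpowers u)
    have : b⁻¹ * u * b = u := by
      have := Subgroup.mem_center_iff.mp hc b⁻¹
      rw [this]
      group
    rwa [this] at hv
  have hRc : ∀ u ∈ Pif (G := G) π, u ∈ Subgroup.center G → Rr H u = Fintype.card G := by
    intro u hu hc
    unfold Rr
    rw [Finset.filter_true_of_mem, Finset.card_univ]
    intro g _
    have : g⁻¹ * u * g = u := by
      have := Subgroup.mem_center_iff.mp hc g⁻¹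
      rw [this]
      group
    rw [this]
    exact hcH u hu hc
  have hTc : ∀ u : G, u ∈ Subgroup.center G → Tt π u = Tt π (1 : G) := by
    intro u hc
    unfold Tt
    congr 1
    ext x
    simp only [Finset.mem_filter, Finset.mem_univ, true_and, mul_one, one_mul, and_true]
    constructor
    · exact fun h => h.1
    · exact fun h => ⟨h, Subgroup.mem_center_iff.mp hc x⟩
  set h := (Hf H).card with hh
  set Zc := (Pif (G := G) π).filter (fun u => u ∈ Subgroup.center G) with hZc
  set Zn := (Pif (G := G) π).filter (fun u => ¬ u ∈ Subgroup.center G) with hZn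
  have s1 : ∑ u ∈ Pif (G := G) π, Tt π u = Fintype.card G := by
    have := sum_piP (π := π) (G := G) (R := ℕ) (fun _ => 1)
    simpa using this.symm
  have s2 : ∑ u ∈ Pif (G := G) π, Rr H u = Fintype.card G * h := by
    have := sum_Rr (π := π) (H := H) hH.pi (R := ℕ) (fun _ => 1)
    simp only [Nat.cast_id, mul_one, Finset.sum_const, Finset.card_univ, smul_eq_mul] at this
    rw [this]
  have hZ1 : ∑ u ∈ Zc, Rr H u = Zc.card * Fintype.card G := by
    rw [Finset.sum_congr rfl (fun u hu => hRc u (Finset.mem_filter.mp hu).1 (Finset.mem_filter.mp hu).2),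
      Finset.sum_const, smul_eq_mul]
  have hZ2 : ∑ u ∈ Zc, Tt π u = Zc.card * Tt π (1 : G) := by
    rw [Finset.sum_congr rfl (fun u hu => hTc u (Finset.mem_filter.mp hu).2),
      Finset.sum_const, smul_eq_mul]
  have hZ3 : ∑ u ∈ Zn, Rr H u = ∑ u ∈ Zn, Tt π u * h :=
    Finset.sum_congr rfl (fun u hu => hnc u (Finset.mem_filter.mp hu).1 (Finset.mem_filter.mp hu).2)
  have e1 : ∑ u ∈ Zc, Rr H u + ∑ u ∈ Zn, Rr H u = Fintype.card G * h := by
    rw [← s2]
    exact Finset.sum_filter_add_sum_filter_not _ _ _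
  have e2 : ∑ u ∈ Zc, Tt π u + ∑ u ∈ Zn, Tt π u = Fintype.card G := by
    rw [← s1]
    exact Finset.sum_filter_add_sum_filter_not _ _ _
  have hZpos : 0 < Zc.card := by
    apply Finset.card_pos.mpr
    refine ⟨1, Finset.mem_filter.mpr ⟨?_, Subgroup.one_mem _⟩⟩
    simp only [Pif, Finset.mem_filter, Finset.mem_univ, true_and]
    exact piE_one
  have hmain : Fintype.card G = Tt π (1 : G) * h := by
    have e3 : Zc.card * Fintype.card G + ∑ u ∈ Zn, Tt π u * h = (Zc.card * Tt π (1 : G) + ∑ u ∈ Zn, Tt π u) * h := by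
      rw [← hZ1, ← hZ3, e1, ← hZ2, e2]
    rw [add_mul, ← Finset.sum_mul] at e3
    have e4 : Zc.card * Fintype.card G = Zc.card * Tt π (1 : G) * h := by
      rw [Finset.sum_mul] at e3
      exact Nat.add_right_cancel e3
    rw [mul_assoc] at e4
    exact Nat.eq_of_mul_eq_mul_left hZpos e4
  intro u hu
  by_cases hc : u ∈ Subgroup.center G
  · rw [hRc u hu hc, hTc u hc]
    exact hmain
  · exact hnc u hu hc

/-- **Pushing a class function along the `π`-part.** -/
theorem sum_eq (hH : HallData π H) (hE : HomE π G) (hL : Loc π H) {R : Type*} [CommSemiring R]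
    (f : G → R) (hf : ∀ g u : G, f (g * u * g⁻¹) = f u) :
    ((Hf H).card : R) * ∑ x, f (piP π x) = (Fintype.card G : R) * ∑ v ∈ Hf H, f v := by
  rw [sum_piP, Finset.mul_sum]
  have h1 : ∀ u ∈ Pif (G := G) π, ((Hf H).card : R) * ((Tt π u : R) * f u) = (Rr H u : R) * f u := by
    intro u hu
    rw [main_count hH hE hL u hu]
    push_cast
    ring
  rw [Finset.sum_congr rfl h1, sum_Rr hH.pi]
  simp only [hf, Finset.sum_const, Finset.card_univ, nsmul_eq_mul]

end Cfsg.Agent.Lib.PiHom
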