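import Cfsg.Agent.Lib.PiHom.Parts
import Cfsg.Agent.Lib.PLocal.Alperin
import Cfsg.Agent.Lib.Transfer.ClassSize

/-!
# Control of `p`-fusion by a Hall subgroup in a `D_π`-group that is `π`-homogeneous

If all `π`-subgroups are conjugate into `H` and `N(X)/C(X)` is a `π`-group for all nontrivial
`π`-subgroups `X`, then `H` controls the fusion of `p`-subgroups for all primes `p`: descending
induction through Alperin's fusion theorem and Jordan's lemma.
-/

set_option autoImplicit false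

namespace Cfsg.Agent.Lib.PiHom

open Cfsg Cfsg.Agent.Lib.PLocal.Alperin

universe u

variable {G : Type u} [Group G] {π : Set ℕ}

/-- Hall data: `H` consists of `π`-elements and every `π`-subgroup has a conjugate in `H`. -/
structure HallData (π : Set ℕ) (H : Subgroup G) : Prop where
  pi : ∀ x ∈ H, PiE π x
  conj : ∀ X : Subgroup G, (∀ x ∈ X, PiE π x) → ∃ g : G, ∀ x ∈ X, g⁻¹ * x * g ∈ H

/-- Element form of `π`-homogeneity. -/
def HomE (π : Set ℕ) (G : Type u) [Group G] : Prop :=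
  ∀ X : Subgroup G, X ≠ ⊥ → (∀ x ∈ X, PiE π x) → ∀ n ∈ Subgroup.normalizer (X : Set G), SigE π n →
    n ∈ Subgroup.centralizer (X : Set G)

/-- The conjugate `x⁻¹ A x` as a subgroup. -/
noncomputable def cs (x : G) (A : Subgroup G) : Subgroup G := A.map (MulAut.conj x⁻¹).toMonoidHom

lemma coe_cs (x : G) (A : Subgroup G) : (cs x A : Set G) = conjSet x (A : Set G) := by
  ext y
  simp only [cs, Subgroup.coe_map, Set.mem_image, SetLike.mem_coe, conjSet]
  simp [MulAut.conj_apply]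

lemma mem_cs {x y : G} {A : Subgroup G} : y ∈ cs x A ↔ ∃ a ∈ A, x⁻¹ * a * x = y := by
  rw [← SetLike.mem_coe, coe_cs]
  rfl

lemma card_cs (x : G) (A : Subgroup G) : Nat.card (cs x A) = Nat.card A := by
  exact Nat.card_congr (A.equivMapOfInjective _ (MulEquiv.injective _)).symm.toEquiv

lemma mem_normalizer_of_conjSet {n : G} {X : Subgroup G}
    (h : conjSet n (X : Set G) = X) : n ∈ Subgroup.normalizer (X : Set G) := by
  rw [Subgroup.mem_normalizer_iff]
  have h1 : ∀ x ∈ X, n⁻¹ * x * n ∈ X := fun x hx => by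
    have : n⁻¹ * x * n ∈ conjSet n (X : Set G) := ⟨x, hx, rfl⟩
    rwa [h] at this
  have h2 : ∀ x ∈ X, n * x * n⁻¹ ∈ X := fun x hx => by
    have : x ∈ conjSet n (X : Set G) := by rw [h]; exact hx
    obtain ⟨y, hy, rfl⟩ := this
    have e : n * (n⁻¹ * y * n) * n⁻¹ = y := by group
    simpa [e] using hy
  intro x
  constructor
  · exact h2 x
  · intro hx
    have := h1 _ hx
    have e : n⁻¹ * (n * x * n⁻¹) * n = x := by group
    simpa [e] using this

lemma inv_conj_mem_of_normalizer {n : G} {X : Subgroup G}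
    (h : n ∈ Subgroup.normalizer (X : Set G)) {x : G} (hx : x ∈ X) : n⁻¹ * x * n ∈ X := by
  rw [Subgroup.mem_normalizer_iff] at h
  apply (h _).mpr
  have e : n * (n⁻¹ * x * n) * n⁻¹ = x := by group
  simpa [e] using hx

lemma conjSet_of_mem_normalizer {n : G} {X : Subgroup G}
    (h : n ∈ Subgroup.normalizer (X : Set G)) : conjSet n (X : Set G) = X := by
  ext y
  constructor
  · rintro ⟨x, hx, rfl⟩
    exact inv_conj_mem_of_normalizer h hx
  · intro hy
    rw [Subgroup.mem_normalizer_iff] at h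
    refine ⟨n * y * n⁻¹, (h y).mp hy, by group⟩

/-- Subgroups of `π`-elements, one normalizing the other, generate a subgroup of `π`-elements. -/
lemma piE_sup [Finite G] {X Y : Subgroup G} (hX : ∀ x ∈ X, PiE π x) (hY : ∀ y ∈ Y, PiE π y)
    (hYX : Y ≤ Subgroup.normalizer (X : Set G)) : ∀ w ∈ X ⊔ Y, PiE π w := by
  intro w hw q hq hd
  by_contra hqπ
  -- an element of order `q`
  have hw0 : w ^ (orderOf w / q) ∈ X ⊔ Y := Subgroup.pow_mem _ hw _
  have ho : orderOf (w ^ (orderOf w / q)) = q := by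
    rw [orderOf_pow_orderOf_div (orderOf_pos w).ne' hd]
  set z := w ^ (orderOf w / q) with hz
  have hzmem : z ∈ (↑(Y ⊔ X) : Set G) := by
    rw [sup_comm]; exact hw0
  rw [Subgroup.coe_mul_of_left_le_normalizer_right Y X hYX] at hzmem
  obtain ⟨y, hy, x, hx, hyx⟩ := Set.mem_mul.mp hzmem
  have key : ∀ n : ℕ, ∃ x' ∈ X, (y * x) ^ n = y ^ n * x' := by
    intro n
    induction n with
    | zero => exact ⟨1, X.one_mem, by simp⟩
    | succ k ih =>
      obtain ⟨x', hx', hk⟩ := ih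
      refine ⟨y⁻¹ * x' * y * x, ?_, ?_⟩
      · apply X.mul_mem _ hx
        exact inv_conj_mem_of_normalizer (hYX hy) hx'
      · rw [pow_succ, hk, pow_succ]
        group
  obtain ⟨x', hx', hk⟩ := key q
  have hzq : z ^ q = 1 := by rw [← ho]; exact pow_orderOf_eq_one z
  rw [← hyx] at hzq
  change (y * x) ^ q = 1 at hzq
  rw [hk] at hzq
  have hyq : y ^ q ∈ X := by
    have : y ^ q = x'⁻¹ := eq_inv_of_mul_eq_one_left hzq
    rw [this]
    exact X.inv_mem hx'
  have hcop : q.Coprime (orderOf y) := by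
    rw [Nat.Prime.coprime_iff_not_dvd hq]
    intro hqy
    exact hqπ (hY y hy q hq hqy)
  obtain ⟨m, hm⟩ := exists_pow_eq_self_of_coprime hcop
  have hyX : y ∈ X := by
    rw [← hm]
    exact X.pow_mem hyq m
  have hzX : z ∈ X := by
    rw [← hyx]
    exact X.mul_mem hyX hx
  apply hqπ
  apply hX z hzX q hq
  rw [ho]

lemma piE_zpowers [Finite G] {y : G} (hy : PiE π y) : ∀ w ∈ Subgroup.zpowers y, PiE π w := by
  rintro w ⟨k, rfl⟩
  apply PiE.of_pow_eq_one (n := orderOf y)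
  · change (y ^ k) ^ orderOf y = 1
    rw [← zpow_natCast, ← zpow_mul, mul_comm, zpow_mul, zpow_natCast, pow_orderOf_eq_one, one_zpow]
  · exact hy

section Sylow

variable [Finite G] {H : Subgroup G}

/-- A Hall subgroup contains a Sylow `p`-subgroup. -/
lemma exists_sylow_le {p : ℕ} [Fact p.Prime] (hp : p ∈ π) (hH : HallData π H) :
    ∃ P : Sylow p G, (P : Subgroup G) ≤ H := by
  let P₀ : Sylow p G := default
  have h0 : ∀ x ∈ (P₀ : Subgroup G), PiE π x := by
    intro x hx q hq hd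
    obtain ⟨k, hk⟩ := (IsPGroup.iff_orderOf.mp P₀.2) ⟨x, hx⟩
    rw [Subgroup.orderOf_mk] at hk
    rw [hk] at hd
    rw [(Nat.prime_dvd_prime_iff_eq hq Fact.out).mp (hq.dvd_of_dvd_pow hd)]
    exact hp
  obtain ⟨g, hg⟩ := hH.conj _ h0
  refine ⟨g⁻¹ • P₀, ?_⟩
  intro y hy
  rw [mem_smul_iff] at hy
  have := hg _ hy
  convert this using 1
  group

/-- A `p`-subgroup of `H` is `H`-conjugate into a Sylow subgroup inside `H`. -/
lemma exists_conj_le_sylow {p : ℕ} [Fact p.Prime] (P : Sylow p G) (hPH : (P : Subgroup G) ≤ H)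
    {X : Subgroup G} (hXH : X ≤ H) (hX : IsPGroup p X) :
    ∃ h ∈ H, ∀ x ∈ X, h⁻¹ * x * h ∈ (P : Subgroup G) := by
  let P' : Sylow p H := P.subtype hPH
  have hX' : IsPGroup p (X.subgroupOf H) := by
    exact hX.comap_of_injective H.subtype H.subtype_injective
  obtain ⟨Q, hQ⟩ := hX'.exists_le_sylow
  obtain ⟨h, hh⟩ := MulAction.exists_smul_eq (↥H) Q P'
  refine ⟨(h : G)⁻¹, H.inv_mem h.2, ?_⟩
  intro x hx
  have hxQ : (⟨x, hXH hx⟩ : H) ∈ (Q : Subgroup H) := hQ (Subgroup.mem_subgroupOf.mpr hx)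
  have h1 : h * ⟨x, hXH hx⟩ * h⁻¹ ∈ ((h • Q : Sylow p H) : Subgroup H) := by
    rw [mem_smul_iff]
    convert hxQ using 1
    group
  rw [hh] at h1
  have h2 : (h * ⟨x, hXH hx⟩ * h⁻¹ : H) ∈ (P : Subgroup G).subgroupOf H := by
    rw [← P.coe_subtype hPH]
    exact h1
  have h3 := Subgroup.mem_subgroupOf.mp h2
  simpa using h3

end Sylow

section Main

variable [Finite G] {H : Subgroup G} {p : ℕ} [Fact p.Prime]

/-- Control of fusion for all larger subgroups of the Sylow subgroup. -/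
def BigCtrl (H : Subgroup G) (P : Sylow p G) (n : ℕ) : Prop :=
  ∀ Y : Subgroup G, Y ≤ P → n < Nat.card Y → ∀ g : G, (∀ y ∈ Y, g⁻¹ * y * g ∈ H) →
    ∃ h ∈ H, ∀ y ∈ Y, g⁻¹ * y * g = h⁻¹ * y * h

lemma chain_step {P : Sylow p G} (hPH : (P : Subgroup G) ≤ H) {n : ℕ} (hB : BigCtrl H P n) :
    ∀ (L : List (Sylow p G × G)) (A : Subgroup G), A ≤ P → Nat.card A = n →
      ChainOK (StA P) (DomA P) (A : Set G) L →
      ∃ h ∈ H, conjSet (L.map Prod.snd).prod (A : Set G) = conjSet h (A : Set G) := by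
  intro L
  induction L with
  | nil =>
    intro A _ _ _
    exact ⟨1, H.one_mem, by simp⟩
  | cons c L ih =>
    intro A hAP hcard hc
    obtain ⟨hSt, hDom, hrest⟩ := hc
    rcases c with ⟨Q, x⟩
    simp only at hSt hDom hrest
    set D : Subgroup G := (P : Subgroup G) ⊓ (Q : Subgroup G) with hD
    have hxN : x ∈ Subgroup.normalizer (D : Set G) := hSt.1
    have hAD : A ≤ D := fun a ha => hDom ha
    have hcardle : Nat.card A ≤ Nat.card D := Subgroup.card_le_of_le hAD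
    simp only [List.map_cons, List.prod_cons]
    rw [conjSet_mul]
    by_cases hlt : n < Nat.card D
    · obtain ⟨h₁, hh₁, hy⟩ := hB D inf_le_left hlt x (fun d hd =>
        hPH ((inf_le_left : D ≤ _) (inv_conj_mem_of_normalizer hxN hd)))
      have hset : conjSet x (A : Set G) = (cs h₁ A : Set G) := by
        rw [coe_cs]
        ext y
        constructor
        · rintro ⟨a, ha, rfl⟩
          exact ⟨a, ha, (hy a (hAD ha)).symm⟩
        · rintro ⟨a, ha, rfl⟩
          exact ⟨a, ha, hy a (hAD ha)⟩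
      rw [hset] at hrest ⊢
      have hA'P : cs h₁ A ≤ P := by
        intro y hy'
        have hy'' : y ∈ (cs h₁ A : Set G) := hy'
        rw [← hset] at hy''
        obtain ⟨a, ha, rfl⟩ := hy''
        exact (inf_le_left : D ≤ _) (inv_conj_mem_of_normalizer hxN (hAD ha))
      obtain ⟨h₂, hh₂, he⟩ := ih (cs h₁ A) hA'P (by rw [card_cs, hcard]) hrest
      refine ⟨h₁ * h₂, H.mul_mem hh₁ hh₂, ?_⟩
      rw [he, conjSet_mul, coe_cs]
    · have hEq : A = D := Subgroup.eq_of_le_of_card_ge hAD (by omega)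
      have hset : conjSet x (A : Set G) = (A : Set G) := by
        rw [hEq]
        exact conjSet_of_mem_normalizer hxN
      rw [hset] at hrest ⊢
      exact ih A hAP hcard hrest

/-- The unpointed statement inside the Sylow subgroup. -/
lemma unpointed_sylow {P : Sylow p G} (hPH : (P : Subgroup G) ≤ H) {X : Subgroup G} (hXP : X ≤ P)
    (hB : BigCtrl H P (Nat.card X)) {g : G} (hg : ∀ x ∈ X, g⁻¹ * x * g ∈ (P : Subgroup G)) :
    ∃ h ∈ H, conjSet g (X : Set G) = conjSet h (X : Set G) := by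
  have hr := reach_of_conj (P := P) (A := (X : Set G)) (g := g) hXP (by
    rintro _ ⟨x, hx, rfl⟩
    exact hg x hx)
  obtain ⟨L, hL, rfl⟩ := hr
  exact chain_step hPH hB L X hXP rfl hL

/-- The unpointed statement. -/
lemma unpointed {P : Sylow p G} (hPH : (P : Subgroup G) ≤ H) {X : Subgroup G} (hXP : X ≤ P)
    (hB : BigCtrl H P (Nat.card X)) {g : G} (hg : ∀ x ∈ X, g⁻¹ * x * g ∈ H) :
    ∃ h ∈ H, conjSet g (X : Set G) = conjSet h (X : Set G) := by
  have hY : cs g X ≤ H := by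
    intro y hy
    obtain ⟨x, hx, rfl⟩ := mem_cs.mp hy
    exact hg x hx
  have hYp : IsPGroup p (cs g X) := by
    have hXp : IsPGroup p X := P.2.to_le hXP
    exact hXp.map _
  obtain ⟨h₀, hh₀, h0⟩ := exists_conj_le_sylow P hPH hY hYp
  have hg₁ : ∀ x ∈ X, (g * h₀)⁻¹ * x * (g * h₀) ∈ (P : Subgroup G) := by
    intro x hx
    have := h0 (g⁻¹ * x * g) (mem_cs.mpr ⟨x, hx, rfl⟩)
    convert this using 1
    group
  obtain ⟨h₁, hh₁, he⟩ := unpointed_sylow hPH hXP hB hg₁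
  refine ⟨h₁ * h₀⁻¹, H.mul_mem hh₁ (H.inv_mem hh₀), ?_⟩
  rw [conjSet_mul h₁ h₀⁻¹, ← he, ← conjSet_mul]
  simp

/-- Jordan's lemma gives `N(X) = C(X) N_H(X)`. -/
lemma normalizer_factor {P : Sylow p G} (hH : HallData π H) (hE : HomE π G)
    (hPH : (P : Subgroup G) ≤ H) {X : Subgroup G} (hXP : X ≤ P) (hX : X ≠ ⊥)
    (hB : BigCtrl H P (Nat.card X)) {n : G} (hn : n ∈ Subgroup.normalizer (X : Set G)) :
    ∃ c ∈ Subgroup.centralizer (X : Set G), ∃ s ∈ H, n = c * s := by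
  classical
  set N : Subgroup G := Subgroup.normalizer (X : Set G) with hN
  set C : Subgroup G := Subgroup.centralizer (X : Set G) with hC
  have hCnorm : (C.subgroupOf N).Normal := by
    constructor
    rintro ⟨c, hcN⟩ hc ⟨m, hm⟩
    rw [Subgroup.mem_subgroupOf] at hc ⊢
    simp only [Subgroup.coe_mul, MulMemClass.coe_mul, InvMemClass.coe_inv]
    rw [hC, Subgroup.mem_centralizer_iff] at hc ⊢
    intro x hx
    have hx' : m⁻¹ * x * m ∈ X := inv_conj_mem_of_normalizer hm hx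
    have := hc _ hx'
    calc x * (m * c * m⁻¹) = m * ((m⁻¹ * x * m) * c) * m⁻¹ := by group
      _ = m * (c * (m⁻¹ * x * m)) * m⁻¹ := by rw [this]
      _ = m * c * m⁻¹ * x := by group
  have htop : (C.subgroupOf N) ⊔ (H.subgroupOf N) = ⊤ := by
    apply Cfsg.Agent.Lib.Transfer.ClassSize.eq_top_of_forall_conj_mem
    rintro ⟨m, hm⟩
    have hXπ : ∀ x ∈ X, PiE π x := fun x hx => hH.pi x (hPH (hXP hx))
    set y := piP π m with hy
    set c := sigP π m with hc
    have hyN : y ∈ N := mem_of_piP N hm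
    have hcN : c ∈ N := mem_of_sigP N hm
    have hcC : c ∈ C := hE X hX hXπ c hcN (sigE_sigP π m)
    have hW : ∀ w ∈ X ⊔ Subgroup.zpowers y, PiE π w := by
      apply piE_sup hXπ (piE_zpowers (piE_piP π m))
      rw [Subgroup.zpowers_le]
      exact hyN
    obtain ⟨b, hb⟩ := hH.conj _ hW
    have hb1 : ∀ x ∈ X, b⁻¹ * x * b ∈ H := fun x hx => hb x (Subgroup.mem_sup_left hx)
    have hby : b⁻¹ * y * b ∈ H :=
      hb y (Subgroup.mem_sup_right (Subgroup.mem_zpowers y))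
    obtain ⟨h, hh, he⟩ := unpointed hPH hXP hB hb1
    have haInv : b * h⁻¹ ∈ N := by
      apply mem_normalizer_of_conjSet
      rw [conjSet_mul, he, ← conjSet_mul]
      simp
    have ha : h * b⁻¹ ∈ N := by
      have := N.inv_mem haInv
      simpa using this
    refine ⟨⟨h * b⁻¹, ha⟩, ?_⟩
    have hprod : m = y * c := (piP_mul_sigP π m).symm
    have hsplit : (⟨h * b⁻¹, ha⟩ * ⟨m, hm⟩ * (⟨h * b⁻¹, ha⟩ : N)⁻¹ : N) =
        ⟨(h * b⁻¹) * c * (h * b⁻¹)⁻¹, N.mul_mem (N.mul_mem ha hcN) (N.inv_mem ha)⟩ *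
        ⟨(h * b⁻¹) * y * (h * b⁻¹)⁻¹, N.mul_mem (N.mul_mem ha hyN) (N.inv_mem ha)⟩ := by
      apply Subtype.ext
      have hcomm : y * c = c * y := commute_piP_sigP π m
      simp only [MulMemClass.coe_mul, InvMemClass.coe_inv]
      rw [hprod, hcomm]
      group
    rw [hsplit]
    apply Subgroup.mul_mem_sup
    · exact hCnorm.conj_mem ⟨c, hcN⟩ (Subgroup.mem_subgroupOf.mpr hcC) ⟨h * b⁻¹, ha⟩
    · rw [Subgroup.mem_subgroupOf]
      have : (h * b⁻¹) * y * (h * b⁻¹)⁻¹ = h * (b⁻¹ * y * b) * h⁻¹ := by group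
      simp only
      rw [this]
      exact H.mul_mem (H.mul_mem hh hby) (H.inv_mem hh)
  have hmem : (⟨n, hn⟩ : N) ∈ ((C.subgroupOf N ⊔ H.subgroupOf N : Subgroup N) : Set N) := by
    rw [htop]
    trivial
  rw [Subgroup.normal_mul] at hmem
  obtain ⟨c, hc, s, hs, hcs⟩ := Set.mem_mul.mp hmem
  refine ⟨c, Subgroup.mem_subgroupOf.mp hc, s, Subgroup.mem_subgroupOf.mp hs, ?_⟩
  have := congrArg Subtype.val hcs
  simpa using this.symm

/-- **Control of fusion**: for a subgroup `X` of a Sylow subgroup inside `H`. -/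
theorem ctrl_sylow {P : Sylow p G} (hH : HallData π H) (hE : HomE π G)
    (hPH : (P : Subgroup G) ≤ H) (X : Subgroup G) (hXP : X ≤ P) :
    ∀ g : G, (∀ x ∈ X, g⁻¹ * x * g ∈ H) → ∃ h ∈ H, ∀ x ∈ X, g⁻¹ * x * g = h⁻¹ * x * h := by
  induction' hk : Nat.card G - Nat.card X using Nat.strong_induction_on with k ih generalizing X
  intro g hg
  by_cases hX : X = ⊥
  · refine ⟨1, H.one_mem, ?_⟩
    intro x hx
    rw [hX, Subgroup.mem_bot] at hx
    simp [hx]
  have hB : BigCtrl H P (Nat.card X) := by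
    intro Y hYP hlt g' hg'
    have hle : Nat.card Y ≤ Nat.card G := Subgroup.card_le_card_group Y
    exact ih (Nat.card G - Nat.card Y) (by omega) Y hYP rfl g' hg'
  obtain ⟨h₁, hh₁, he⟩ := unpointed hPH hXP hB hg
  have hnN : g * h₁⁻¹ ∈ Subgroup.normalizer (X : Set G) := by
    apply mem_normalizer_of_conjSet
    rw [conjSet_mul, he, ← conjSet_mul]
    simp
  obtain ⟨c, hc, s, hs, hcs⟩ := normalizer_factor hH hE hPH hXP hX hB hnN
  refine ⟨s * h₁, H.mul_mem hs hh₁, ?_⟩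
  intro x hx
  have hgeq : g = c * s * h₁ := by
    rw [← hcs]
    group
  rw [Subgroup.mem_centralizer_iff] at hc
  have hcx : x * c = c * x := hc x hx
  calc g⁻¹ * x * g = (s * h₁)⁻¹ * (c⁻¹ * (x * c)) * (s * h₁) := by
        rw [hgeq]; group
    _ = (s * h₁)⁻¹ * x * (s * h₁) := by
        rw [hcx]; group

/-- **Control of fusion** for `p`-subgroups of `H`. -/
theorem ctrl_pgroup (hH : HallData π H) (hE : HomE π G) (X : Subgroup G) (hXH : X ≤ H)
    (hX : IsPGroup p X) (g : G) (hg : ∀ x ∈ X, g⁻¹ * x * g ∈ H) :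
    ∃ h ∈ H, ∀ x ∈ X, g⁻¹ * x * g = h⁻¹ * x * h := by
  by_cases hbot : X = ⊥
  · refine ⟨1, H.one_mem, ?_⟩
    intro x hx
    rw [hbot, Subgroup.mem_bot] at hx
    simp [hx]
  have hp : p ∈ π := by
    obtain ⟨x, hx, hx1⟩ := (Subgroup.bot_or_exists_ne_one X).resolve_left hbot
    obtain ⟨k, hk⟩ := (IsPGroup.iff_orderOf.mp hX) ⟨x, hx⟩
    rw [Subgroup.orderOf_mk] at hk
    have hk0 : k ≠ 0 := by
      rintro rfl
      rw [pow_zero, orderOf_eq_one_iff] at hk
      exact hx1 hk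
    exact hH.pi x (hXH hx) p Fact.out (by rw [hk]; exact dvd_pow_self p hk0)
  obtain ⟨P, hPH⟩ := exists_sylow_le hp hH
  obtain ⟨h₀, hh₀, h0⟩ := exists_conj_le_sylow P hPH hXH hX
  have hX' : cs h₀ X ≤ P := by
    intro y hy
    obtain ⟨x, hx, rfl⟩ := mem_cs.mp hy
    exact h0 x hx
  obtain ⟨h, hh, he⟩ := ctrl_sylow hH hE hPH (cs h₀ X) hX' (h₀⁻¹ * g) (by
    intro y hy
    obtain ⟨x, hx, rfl⟩ := mem_cs.mp hy
    convert hg x hx using 1
    group)
  refine ⟨h₀ * h, H.mul_mem hh₀ hh, ?_⟩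
  intro x hx
  have := he (h₀⁻¹ * x * h₀) (mem_cs.mpr ⟨x, hx, rfl⟩)
  calc g⁻¹ * x * g = (h₀⁻¹ * g)⁻¹ * (h₀⁻¹ * x * h₀) * (h₀⁻¹ * g) := by group
    _ = h⁻¹ * (h₀⁻¹ * x * h₀) * h := this
    _ = (h₀ * h)⁻¹ * x * (h₀ * h) := by group

end Main

end Cfsg.Agent.Lib.PiHom
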