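import Cfsg.Agent.Lib.PiHom.Ctrl

/-!
# Centralizers of prime-power elements of a Hall subgroup

The hypotheses pass to the centralizer `C` of a `p`-element `u` of `H`; if `C` has a normal subgroup
consisting of its `π'`-elements then `C = K (H ∩ C)`.
-/

set_option autoImplicit false

namespace Cfsg.Agent.Lib.PiHom

open Cfsg Cfsg.Agent.Lib.PLocal.Alperin

universe u

variable {G : Type u} [Group G] {π : Set ℕ}

/-- The conclusion: the `π'`-elements form a subgroup. -/
def Closed (π : Set ℕ) (G : Type u) [Group G] : Prop :=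
  ∃ K : Subgroup G, ∀ x : G, x ∈ K ↔ SigE π x

lemma piE_coe {M : Subgroup G} {x : M} : PiE π (x : G) ↔ PiE π x := by
  unfold PiE
  rw [Subgroup.orderOf_coe]

lemma sigE_coe {M : Subgroup G} {x : M} : SigE π (x : G) ↔ SigE π x := by
  unfold SigE
  rw [Subgroup.orderOf_coe]

/-- `π`-homogeneity passes to subgroups. -/
lemma homE_subgroup (hE : HomE π G) (M : Subgroup G) : HomE π M := by
  intro X hX hXπ n hn hσ
  have hX' : X.map M.subtype ≠ ⊥ := by
    intro h
    apply hX
    rwa [Subgroup.map_eq_bot_iff_of_injective _ M.subtype_injective] at h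
  have hXπ' : ∀ x ∈ X.map M.subtype, PiE π x := by
    rintro _ ⟨y, hy, rfl⟩
    exact piE_coe.mpr (hXπ y hy)
  have hn' : (n : G) ∈ Subgroup.normalizer ((X.map M.subtype : Subgroup G) : Set G) := by
    rw [Subgroup.mem_normalizer_iff]
    rw [Subgroup.mem_normalizer_iff] at hn
    intro x
    constructor
    · rintro ⟨y, hy, rfl⟩
      exact ⟨n * y * n⁻¹, (hn y).mp hy, rfl⟩
    · rintro ⟨y, hy, hye⟩
      have hxM : x ∈ M := by
        have e : x = (n : G)⁻¹ * y * n := by
          rw [show (y : G) = n * x * (n : G)⁻¹ from hye]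
          group
        rw [e]
        exact M.mul_mem (M.mul_mem (M.inv_mem n.2) y.2) n.2
      refine ⟨⟨x, hxM⟩, (hn _).mpr ?_, rfl⟩
      have : n * ⟨x, hxM⟩ * n⁻¹ = y := by
        apply Subtype.ext
        exact hye.symm
      rw [this]
      exact hy
  have := hE _ hX' hXπ' (n : G) hn' (sigE_coe.mpr hσ)
  rw [Subgroup.mem_centralizer_iff] at this ⊢
  intro x hx
  apply Subtype.ext
  exact this (x : G) ⟨x, hx, rfl⟩

/-- Control of fusion for a `p`-element. -/
lemma fuse_pelt [Finite G] {H : Subgroup G} (hH : HallData π H) (hE : HomE π G) {p k : ℕ} (hp : p.Prime)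
    {u : G} (hu : u ∈ H) (hk : orderOf u = p ^ k) (g : G) (hg : g⁻¹ * u * g ∈ H) :
    ∃ h ∈ H, g⁻¹ * u * g = h⁻¹ * u * h := by
  haveI := Fact.mk hp
  have hX : IsPGroup p (Subgroup.zpowers u) :=
    IsPGroup.of_card (n := k) (by rw [Nat.card_zpowers, hk])
  have hXH : Subgroup.zpowers u ≤ H := by
    rw [Subgroup.zpowers_le]
    exact hu
  obtain ⟨h, hh, he⟩ := ctrl_pgroup hH hE (Subgroup.zpowers u) hXH hX g (by
    rintro x ⟨i, rfl⟩
    have : g⁻¹ * (u ^ i) * g = (g⁻¹ * u * g) ^ i := by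
      have := conj_zpow (a := g⁻¹) (b := u) (i := i)
      simpa using this.symm
    change g⁻¹ * (u ^ i) * g ∈ H
    rw [this]
    exact H.zpow_mem hg i)
  exact ⟨h, hh, he u (Subgroup.mem_zpowers u)⟩

/-- The Hall data passes to the centralizer of a `p`-element of `H`. -/
lemma hallData_centralizer [Finite G] {H : Subgroup G} (hH : HallData π H) (hE : HomE π G)
    {p k : ℕ} (hp : p.Prime) {u : G} (hu : u ∈ H) (hk : orderOf u = p ^ k) :
    HallData π (H.subgroupOf (Subgroup.centralizer ({u} : Set G))) := by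
  set C := Subgroup.centralizer ({u} : Set G) with hC
  have huC : u ∈ C := by
    rw [hC, Subgroup.mem_centralizer_singleton_iff]
  have hcomm : ∀ c ∈ C, c * u = u * c := fun c hc => by
    rwa [hC, Subgroup.mem_centralizer_singleton_iff] at hc
  refine ⟨fun x hx => piE_coe.mp (hH.pi _ (Subgroup.mem_subgroupOf.mp hx)), ?_⟩
  intro X hX
  have hXπ : ∀ x ∈ X.map C.subtype, PiE π x := by
    rintro _ ⟨y, hy, rfl⟩
    exact piE_coe.mpr (hX y hy)
  have huπ : PiE π u := hH.pi u hu
  have hW := piE_sup hXπ (piE_zpowers huπ) (by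
    rw [Subgroup.zpowers_le, Subgroup.mem_normalizer_iff]
    intro x
    constructor
    · rintro ⟨y, hy, rfl⟩
      have : u * (y : G) * u⁻¹ = y := by
        have := hcomm y y.2
        rw [← this]
        group
      change u * (y : G) * u⁻¹ ∈ _
      rw [this]
      exact ⟨y, hy, rfl⟩
    · rintro ⟨y, hy, hye⟩
      have hye' : (y : G) = u * x * u⁻¹ := hye
      have hxe : x = y := by
        have := hcomm y y.2
        have h2 : u⁻¹ * (y : G) * u = y := by
          rw [mul_assoc, this]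
          group
        rw [← h2, hye']
        group
      rw [hxe]
      exact ⟨y, hy, rfl⟩)
  obtain ⟨g, hg⟩ := hH.conj _ hW
  have hgu : g⁻¹ * u * g ∈ H := hg u (Subgroup.mem_sup_right (Subgroup.mem_zpowers u))
  obtain ⟨h, hh, he⟩ := fuse_pelt hH hE hp hu hk g hgu
  have hcC : g * h⁻¹ ∈ C := by
    rw [hC, Subgroup.mem_centralizer_singleton_iff]
    have h1 : u * g = g * (h⁻¹ * u * h) := by
      rw [← he]
      group
    calc g * h⁻¹ * u = g * (h⁻¹ * u * h) * h⁻¹ := by group
      _ = u * g * h⁻¹ := by rw [← h1]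
      _ = u * (g * h⁻¹) := by group
  refine ⟨⟨g * h⁻¹, hcC⟩, ?_⟩
  intro x hx
  rw [Subgroup.mem_subgroupOf]
  have h2 : g⁻¹ * (x : G) * g ∈ H := hg x (Subgroup.mem_sup_left ⟨x, hx, rfl⟩)
  have h3 : (((⟨g * h⁻¹, hcC⟩ : C)⁻¹ * x * ⟨g * h⁻¹, hcC⟩ : C) : G) = h * (g⁻¹ * x * g) * h⁻¹ := by
    simp only [MulMemClass.coe_mul, InvMemClass.coe_inv]
    group
  rw [h3]
  exact H.mul_mem (H.mul_mem hh h2) (H.inv_mem hh)

/-- The local structure at an element: the `π'`-elements of `C = C(u)` form a subgroup `K` and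
`C = K (C ∩ H)`. -/
structure LocalS (π : Set ℕ) (H : Subgroup G) (u : G) (K : Subgroup G) : Prop where
  mem : ∀ x : G, x ∈ K ↔ (x * u = u * x ∧ SigE π x)
  fact : ∀ c : G, c * u = u * c → ∃ k ∈ K, ∃ w ∈ H, w * u = u * w ∧ c = k * w

lemma localS_of_closed [Finite G] {H : Subgroup G} {u : G}
    (hW : HallData π (H.subgroupOf (Subgroup.centralizer ({u} : Set G))))
    (hcl : Closed π (Subgroup.centralizer ({u} : Set G))) :
    ∃ K : Subgroup G, LocalS π H u K := by
  classical
  set C := Subgroup.centralizer ({u} : Set G) with hC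
  obtain ⟨L, hL⟩ := hcl
  have hLn : L.Normal := by
    constructor
    intro l hl c
    rw [hL] at hl ⊢
    exact sigE_conj hl c
  have hind : ∀ q : ℕ, q.Prime → q ∣ L.index → q ∈ π := by
    intro q hq hd
    haveI := Fact.mk hq
    have hcard : Nat.card (C ⧸ L) = L.index := rfl
    rw [← hcard] at hd
    obtain ⟨z, hz⟩ := exists_prime_orderOf_dvd_card' q hd
    obtain ⟨c, rfl⟩ := QuotientGroup.mk_surjective z
    have hs : sigP π c ∈ L := (hL _).mpr (sigE_sigP π c)
    have e : ((c : C) : C ⧸ L) = ((piP π c : C) : C ⧸ L) := by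
      rw [QuotientGroup.eq]
      have h1 : c⁻¹ * piP π c = (sigP π c)⁻¹ := by
        nth_rw 1 [← piP_mul_sigP π c]
        group
      rw [h1]
      exact L.inv_mem hs
    rw [e] at hz
    have h2 : orderOf ((piP π c : C) : C ⧸ L) ∣ orderOf (piP π c) :=
      orderOf_map_dvd (QuotientGroup.mk' L) _
    rw [hz] at h2
    exact piE_piP π c q hq h2
  have hcop : Nat.Coprime (Nat.card L) L.index := by
    apply Nat.coprime_of_dvd
    intro q hq hd hd'
    haveI := Fact.mk hq
    obtain ⟨y, hy⟩ := exists_prime_orderOf_dvd_card' q hd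
    have h1 : SigE π (y : C) := (hL _).mp y.2
    apply h1 q hq
    · rw [Subgroup.orderOf_coe, hy]
    · exact hind q hq hd'
  obtain ⟨S, hS⟩ := Subgroup.exists_right_complement'_of_coprime hcop
  have hSπ : ∀ s ∈ S, PiE π s := by
    intro s hs q hq hd
    apply hind q hq
    rw [hS.symm.index_eq_card]
    have : orderOf (⟨s, hs⟩ : S) = orderOf s := Subgroup.orderOf_mk s hs
    rw [← this] at hd
    exact hd.trans (orderOf_dvd_natCard _)
  obtain ⟨a, ha⟩ := hW.conj S hSπ
  refine ⟨L.map C.subtype, ?_, ?_⟩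
  · intro x
    constructor
    · rintro ⟨y, hy, rfl⟩
      exact ⟨Subgroup.mem_centralizer_singleton_iff.mp y.2, sigE_coe.mpr ((hL y).mp hy)⟩
    · rintro ⟨hc, hσ⟩
      have hxC : x ∈ C := by
        rwa [hC, Subgroup.mem_centralizer_singleton_iff]
      exact ⟨⟨x, hxC⟩, (hL _).mpr (sigE_coe.mp hσ), rfl⟩
  · intro c hc
    have hcC : c ∈ C := by
      rwa [hC, Subgroup.mem_centralizer_singleton_iff]
    obtain ⟨⟨l, s⟩, hls⟩ := hS.2 (a * ⟨c, hcC⟩ * a⁻¹)
    simp only at hls
    have hk : a⁻¹ * (l : C) * a ∈ L := by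
      have := hLn.conj_mem l l.2 a⁻¹
      simpa using this
    have hw := ha s s.2
    rw [Subgroup.mem_subgroupOf] at hw
    refine ⟨((a⁻¹ * (l : C) * a : C) : G), ⟨_, hk, rfl⟩, ((a⁻¹ * (s : C) * a : C) : G), hw, ?_, ?_⟩
    · exact Subgroup.mem_centralizer_singleton_iff.mp (a⁻¹ * (s : C) * a : C).2
    · have h1 : (⟨c, hcC⟩ : C) = (a⁻¹ * (l : C) * a) * (a⁻¹ * (s : C) * a) := by
        have : (⟨c, hcC⟩ : C) = a⁻¹ * ((l : C) * (s : C)) * a := by
          rw [hls]
          group
        rw [this]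
        group
      have := congrArg Subtype.val h1
      simpa using this

end Cfsg.Agent.Lib.PiHom
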