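import Mathlib
import Cfsg.Prelude.Def_HallClasses

/-!
# `π`-parts of elements of a finite group

`PiE π x`: the order of `x` has only prime divisors in `π`; `SigE π x`: none in `π`.
`piE π x`, `sigE π x`: the two commuting parts of `x`, both powers of `x` by an exponent that
depends only on the group.
-/

set_option autoImplicit false

namespace Cfsg.Agent.Lib.PiHom

universe u

variable {G : Type u} [Group G] (π : Set ℕ)

/-- The order of `x` has only prime divisors in `π`. -/
def PiE (x : G) : Prop := ∀ p : ℕ, p.Prime → p ∣ orderOf x → p ∈ π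

/-- The order of `x` has no prime divisor in `π`. -/
def SigE (x : G) : Prop := ∀ p : ℕ, p.Prime → p ∣ orderOf x → p ∉ π

variable {π}

lemma PiE.of_pow_eq_one {x : G} {n : ℕ} (hn : x ^ n = 1) (h : ∀ p : ℕ, p.Prime → p ∣ n → p ∈ π) :
    PiE π x := fun p hp hd => h p hp (hd.trans (orderOf_dvd_of_pow_eq_one hn))

lemma SigE.of_pow_eq_one {x : G} {n : ℕ} (hn : x ^ n = 1) (h : ∀ p : ℕ, p.Prime → p ∣ n → p ∉ π) :
    SigE π x := fun p hp hd => h p hp (hd.trans (orderOf_dvd_of_pow_eq_one hn))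

lemma PiE.pow {x : G} (h : PiE π x) (k : ℕ) : PiE π (x ^ k) :=
  fun p hp hd => h p hp (hd.trans (orderOf_pow_dvd k))

lemma SigE.pow {x : G} (h : SigE π x) (k : ℕ) : SigE π (x ^ k) :=
  fun p hp hd => h p hp (hd.trans (orderOf_pow_dvd k))

lemma orderOf_conj' (g x : G) : orderOf (g * x * g⁻¹) = orderOf x := by
  have := MulEquiv.orderOf_eq (MulAut.conj g) x
  simpa [MulAut.conj_apply] using this

lemma piE_conj {x : G} (h : PiE π x) (g : G) : PiE π (g * x * g⁻¹) := by
  intro p hp hd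
  rw [orderOf_conj'] at hd
  exact h p hp hd

lemma sigE_conj {x : G} (h : SigE π x) (g : G) : SigE π (g * x * g⁻¹) := by
  intro p hp hd
  rw [orderOf_conj'] at hd
  exact h p hp hd

lemma eq_one_of_piE_sigE {x : G} (h : PiE π x) (h' : SigE π x) : x = 1 := by
  by_contra hx
  have : orderOf x ≠ 1 := by rwa [Ne, orderOf_eq_one_iff]
  obtain ⟨p, hp, hd⟩ := Nat.exists_prime_and_dvd this
  exact h' p hp hd (h p hp hd)

lemma piE_one : PiE π (1 : G) := by
  intro p hp hd
  rw [orderOf_one] at hd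
  exact absurd (Nat.dvd_one.mp hd) hp.one_lt.ne'

lemma sigE_one : SigE π (1 : G) := by
  intro p hp hd
  rw [orderOf_one] at hd
  exact absurd (Nat.dvd_one.mp hd) hp.one_lt.ne'

/-- A natural number splits into a `π`-part and a `π'`-part. -/
lemma exists_split (n : ℕ) (hn : n ≠ 0) : ∃ a b : ℕ, n = a * b ∧
    (∀ p : ℕ, p.Prime → p ∣ a → p ∈ π) ∧ (∀ p : ℕ, p.Prime → p ∣ b → p ∉ π) := by
  induction n using Nat.recOnMul with
  | zero => exact absurd rfl hn
  | one => exact ⟨1, 1, rfl, fun p hp hd => absurd (Nat.dvd_one.mp hd) hp.one_lt.ne',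
      fun p hp hd => absurd (Nat.dvd_one.mp hd) hp.one_lt.ne'⟩
  | prime q hq =>
    by_cases hq' : q ∈ π
    · refine ⟨q, 1, (mul_one q).symm, fun p hp hd => ?_, fun p hp hd => absurd (Nat.dvd_one.mp hd) hp.one_lt.ne'⟩
      rwa [(Nat.prime_dvd_prime_iff_eq hp hq).mp hd]
    · refine ⟨1, q, (one_mul q).symm, fun p hp hd => absurd (Nat.dvd_one.mp hd) hp.one_lt.ne', fun p hp hd => ?_⟩
      rwa [(Nat.prime_dvd_prime_iff_eq hp hq).mp hd]
  | mul u v hu hv =>
    obtain ⟨a₁, b₁, rfl, h1, h2⟩ := hu (left_ne_zero_of_mul hn)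
    obtain ⟨a₂, b₂, rfl, h3, h4⟩ := hv (right_ne_zero_of_mul hn)
    refine ⟨a₁ * a₂, b₁ * b₂, by ring, fun p hp hd => ?_, fun p hp hd => ?_⟩
    · rcases (Nat.Prime.dvd_mul hp).mp hd with h | h
      · exact h1 p hp h
      · exact h3 p hp h
    · rcases (Nat.Prime.dvd_mul hp).mp hd with h | h
      · exact h2 p hp h
      · exact h4 p hp h

lemma coprime_of_split {a b : ℕ} (ha : ∀ p : ℕ, p.Prime → p ∣ a → p ∈ π)
    (hb : ∀ p : ℕ, p.Prime → p ∣ b → p ∉ π) : a.Coprime b := by
  apply Nat.Coprime.symm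
  apply Nat.coprime_of_dvd
  intro k hk hkb hka
  exact hb k hk hkb (ha k hk hka)

variable (π) [Finite G]

/-- The splitting exponents of the group. -/
lemma exists_exponents : ∃ (m m' a b : ℕ), Nat.card G = a * b ∧
    (∀ p : ℕ, p.Prime → p ∣ a → p ∈ π) ∧ (∀ p : ℕ, p.Prime → p ∣ b → p ∉ π) ∧
    m ≡ 1 [MOD a] ∧ m ≡ 0 [MOD b] ∧ m' ≡ 0 [MOD a] ∧ m' ≡ 1 [MOD b] := by
  obtain ⟨a, b, hab, ha, hb⟩ := exists_split (π := π) (Nat.card G) Nat.card_pos.ne'
  have hc : a.Coprime b := coprime_of_split ha hb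
  obtain ⟨m, hm⟩ := Nat.chineseRemainder hc 1 0
  obtain ⟨m', hm'⟩ := Nat.chineseRemainder hc 0 1
  exact ⟨m, m', a, b, hab, ha, hb, hm.1, hm.2, hm'.1, hm'.2⟩

/-- The exponent of the `π`-part. -/
noncomputable def expP : ℕ := (exists_exponents (G := G) π).choose

/-- The exponent of the `π'`-part. -/
noncomputable def expS : ℕ := (exists_exponents (G := G) π).choose_spec.choose

/-- The `π`-part of an element. -/
noncomputable def piP (x : G) : G := x ^ expP (G := G) π

/-- The `π'`-part of an element. -/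
noncomputable def sigP (x : G) : G := x ^ expS (G := G) π

lemma spec : ∃ (a b : ℕ), Nat.card G = a * b ∧
    (∀ p : ℕ, p.Prime → p ∣ a → p ∈ π) ∧ (∀ p : ℕ, p.Prime → p ∣ b → p ∉ π) ∧
    expP (G := G) π ≡ 1 [MOD a] ∧ expP (G := G) π ≡ 0 [MOD b] ∧
    expS (G := G) π ≡ 0 [MOD a] ∧ expS (G := G) π ≡ 1 [MOD b] :=
  (exists_exponents (G := G) π).choose_spec.choose_spec

lemma pow_eq_of_modEq_card {x : G} {k l : ℕ} (h : k ≡ l [MOD Nat.card G]) : x ^ k = x ^ l := by
  have hx : orderOf x ∣ Nat.card G := orderOf_dvd_natCard x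
  exact pow_eq_pow_iff_modEq.mpr (h.of_dvd hx)

lemma piP_mul_sigP (x : G) : piP π x * sigP π x = x := by
  obtain ⟨a, b, hab, ha, hb, h1, h2, h3, h4⟩ := spec (G := G) π
  have hc : a.Coprime b := coprime_of_split ha hb
  unfold piP sigP
  rw [← pow_add]
  have : expP (G := G) π + expS (G := G) π ≡ 1 [MOD Nat.card G] := by
    rw [hab, ← Nat.modEq_and_modEq_iff_modEq_mul hc]
    exact ⟨by simpa using h1.add h3, by simpa using h2.add h4⟩
  rw [pow_eq_of_modEq_card this, pow_one]

lemma commute_piP_sigP (x : G) : Commute (piP π x) (sigP π x) :=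
  (Commute.refl x).pow_pow _ _

lemma piE_piP (x : G) : PiE π (piP π x) := by
  obtain ⟨a, b, hab, ha, hb, h1, h2, h3, h4⟩ := spec (G := G) π
  have hc : a.Coprime b := coprime_of_split ha hb
  apply PiE.of_pow_eq_one (n := a) _ ha
  unfold piP
  rw [← pow_mul]
  have : expP (G := G) π * a ≡ 0 [MOD Nat.card G] := by
    rw [hab, ← Nat.modEq_and_modEq_iff_modEq_mul hc]
    constructor
    · exact (Nat.modEq_zero_iff_dvd.mpr (dvd_mul_left a _))
    · simpa using h2.mul_right a
  rw [pow_eq_of_modEq_card this, pow_zero]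

lemma sigE_sigP (x : G) : SigE π (sigP π x) := by
  obtain ⟨a, b, hab, ha, hb, h1, h2, h3, h4⟩ := spec (G := G) π
  have hc : a.Coprime b := coprime_of_split ha hb
  apply SigE.of_pow_eq_one (n := b) _ hb
  unfold sigP
  rw [← pow_mul]
  have : expS (G := G) π * b ≡ 0 [MOD Nat.card G] := by
    rw [hab, ← Nat.modEq_and_modEq_iff_modEq_mul hc]
    constructor
    · simpa using h3.mul_right b
    · exact (Nat.modEq_zero_iff_dvd.mpr (dvd_mul_left b _))
  rw [pow_eq_of_modEq_card this, pow_zero]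

variable {π}

/-- A `π`-element is killed by `expS`. -/
lemma sigP_of_piE {x : G} (h : PiE π x) : sigP π x = 1 := by
  have h1 : PiE π (sigP π x) := h.pow _
  exact eq_one_of_piE_sigE h1 (sigE_sigP π x)

/-- A `π'`-element is killed by `expP`. -/
lemma piP_of_sigE {x : G} (h : SigE π x) : piP π x = 1 := by
  have h1 : SigE π (piP π x) := h.pow _
  exact eq_one_of_piE_sigE (piE_piP π x) h1

lemma piP_of_piE {x : G} (h : PiE π x) : piP π x = x := by
  have := piP_mul_sigP π x
  rwa [sigP_of_piE h, mul_one] at this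

lemma sigP_of_sigE {x : G} (h : SigE π x) : sigP π x = x := by
  have := piP_mul_sigP π x
  rwa [piP_of_sigE h, one_mul] at this

lemma piP_conj (g x : G) : piP π (g * x * g⁻¹) = g * piP π x * g⁻¹ := by
  unfold piP
  rw [conj_pow]

lemma sigP_conj (g x : G) : sigP π (g * x * g⁻¹) = g * sigP π x * g⁻¹ := by
  unfold sigP
  rw [conj_pow]

lemma piP_mul_of_commute {u v : G} (hu : PiE π u) (hv : SigE π v) (h : Commute u v) :
    piP π (u * v) = u := by
  unfold piP
  rw [h.mul_pow]
  change piP π u * piP π v = u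
  rw [piP_of_piE hu, piP_of_sigE hv, mul_one]

lemma sigP_mul_of_commute {u v : G} (hu : PiE π u) (hv : SigE π v) (h : Commute u v) :
    sigP π (u * v) = v := by
  unfold sigP
  rw [h.mul_pow]
  change sigP π u * sigP π v = v
  rw [sigP_of_piE hu, sigP_of_sigE hv, one_mul]

lemma piP_eq_one_iff {x : G} : piP π x = 1 ↔ SigE π x := by
  constructor
  · intro h
    have := piP_mul_sigP π x
    rw [h, one_mul] at this
    rw [← this]
    exact sigE_sigP π x
  · exact piP_of_sigE

lemma mem_of_piP {x : G} (S : Subgroup G) (hx : x ∈ S) : piP π x ∈ S := S.pow_mem hx _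

lemma mem_of_sigP {x : G} (S : Subgroup G) (hx : x ∈ S) : sigP π x ∈ S := S.pow_mem hx _

/-- Subgroups of `π`-elements and `π`-subgroups. -/
lemma isPiSubgroup_iff {X : Subgroup G} : IsPiSubgroup π X ↔ ∀ x ∈ X, PiE π x := by
  constructor
  · intro h x hx p hp hd
    apply h p hp
    have : orderOf (⟨x, hx⟩ : X) = orderOf x := Subgroup.orderOf_mk x hx
    rw [← this] at hd
    exact hd.trans (orderOf_dvd_natCard _)
  · intro h p hp hd
    haveI := Fact.mk hp
    obtain ⟨y, hy⟩ := exists_prime_orderOf_dvd_card' p hd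
    have := h y y.2
    apply this p hp
    rw [Subgroup.orderOf_coe, hy]

end Cfsg.Agent.Lib.PiHom
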