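import Cfsg.Agent.Lib.PiHom.Count
import Cfsg.Agent.Lib.Char.Brauer
import Cfsg.Agent.Lib.Char.Degree

/-!
# Extension of characters of the Hall subgroup along the `π`-part

`star χ x = χ (b⁻¹ x_π b)` with `b⁻¹ x_π b ∈ H`. By Brauer's characterization this is an irreducible
character of `G`, and the intersection of the kernels is the set of `π'`-elements.
-/

set_option autoImplicit false

namespace Cfsg.Agent.Lib.PiHom

open Cfsg Cfsg.Agent.Lib.Char.Basic Cfsg.Agent.Lib.Char.Ortho Cfsg.Agent.Lib.Char.Complete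
open Cfsg.Agent.Lib.Char.GenLattice Cfsg.Agent.Lib.Char.Brauer Cfsg.Agent.Lib.Char.Degree
open scoped ComplexConjugate
open scoped _root_.Classical

universe u

variable {G : Type u} [Group G] [Finite G] {π : Set ℕ} {H : Subgroup G}

lemma exists_conj_piP (hH : HallData π H) (x : G) : ∃ b : G, b⁻¹ * piP π x * b ∈ H := by
  obtain ⟨b, hb⟩ := hH.conj (Subgroup.zpowers (piP π x)) (piE_zpowers (piE_piP π x))
  exact ⟨b, hb _ (Subgroup.mem_zpowers _)⟩

/-- The chosen conjugator. -/
noncomputable def conjEl (hH : HallData π H) (x : G) : G := (exists_conj_piP hH x).choose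

lemma conjEl_spec (hH : HallData π H) (x : G) :
    (conjEl hH x)⁻¹ * piP π x * conjEl hH x ∈ H := (exists_conj_piP hH x).choose_spec

/-- The extension of a function on `H`. -/
noncomputable def star (hH : HallData π H) (χ : H → ℂ) (x : G) : ℂ :=
  χ ⟨(conjEl hH x)⁻¹ * piP π x * conjEl hH x, conjEl_spec hH x⟩

lemma star_eq (hH : HallData π H) (hE : HomE π G) (hL : Loc π H) {χ : H → ℂ}
    (hχ : IsClassFunction H χ) {x a : G} {v : H} (hv : (v : G) = a⁻¹ * piP π x * a) :
    star hH χ x = χ v := by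
  set b := conjEl hH x with hb
  set w : H := ⟨b⁻¹ * piP π x * b, conjEl_spec hH x⟩ with hw
  have hs : star hH χ x = χ w := rfl
  rw [hs]
  have hg : (b⁻¹ * a)⁻¹ * (w : G) * (b⁻¹ * a) ∈ H := by
    have : (b⁻¹ * a)⁻¹ * (w : G) * (b⁻¹ * a) = v := by
      rw [hv, hw]
      group
    rw [this]
    exact v.2
  obtain ⟨h, hh, he⟩ := fus hH hE hL w.2 hg
  have hv' : v = (⟨h, hh⟩ : H)⁻¹ * w * (⟨h, hh⟩ : H)⁻¹⁻¹ := by
    apply Subtype.ext
    simp only [inv_inv, MulMemClass.coe_mul, InvMemClass.coe_inv]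
    rw [← he, hv, hw]
    group
  rw [hv', hχ]

lemma star_class (hH : HallData π H) (hE : HomE π G) (hL : Loc π H) {χ : H → ℂ}
    (hχ : IsClassFunction H χ) (g x : G) : star hH χ (g * x * g⁻¹) = star hH χ x := by
  have hs : star hH χ x = χ ⟨(conjEl hH x)⁻¹ * piP π x * conjEl hH x, conjEl_spec hH x⟩ := rfl
  rw [hs]
  apply star_eq hH hE hL hχ (a := g * conjEl hH x)
  simp only
  rw [piP_conj]
  group

lemma star_of_mem (hH : HallData π H) (hE : HomE π G) (hL : Loc π H) {χ : H → ℂ}
    (hχ : IsClassFunction H χ) (v : H) : star hH χ (v : G) = χ v := by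
  apply star_eq hH hE hL hχ (a := 1)
  rw [piP_of_piE (hH.pi _ v.2)]
  group

lemma star_piP (hH : HallData π H) (hE : HomE π G) (hL : Loc π H) {χ : H → ℂ}
    (hχ : IsClassFunction H χ) (x : G) : star hH χ (piP π x) = star hH χ x := by
  have hs : star hH χ x = χ ⟨(conjEl hH x)⁻¹ * piP π x * conjEl hH x, conjEl_spec hH x⟩ := rfl
  rw [hs]
  apply star_eq hH hE hL hχ (a := conjEl hH x)
  simp only
  rw [piP_of_piE (piE_piP π x)]

/-- The `π`-part is multiplicative on an elementary subgroup. -/
lemma piP_mul_elementary {E : Subgroup G} {p : ℕ} (hp : p.Prime) (hE₀ : IsElementary p E)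
    (e₁ e₂ : E) : piP π ((e₁ : G) * e₂) = piP π (e₁ : G) * piP π (e₂ : G) := by
  haveI := Fact.mk hp
  obtain ⟨z, hz, hcop, k, hk⟩ := hE₀
  set Z := Subgroup.zpowers z with hZ
  have hZc : ∀ y ∈ Z, y ∈ Subgroup.center E := by
    intro y hy
    exact (Subgroup.zpowers_le.mpr hz) hy
  haveI hZn : Z.Normal := by
    constructor
    intro y hy g
    have := (Subgroup.mem_center_iff.mp (hZc y hy)) g
    rw [this, mul_assoc, mul_inv_cancel, mul_one]
    exact hy
  have hcop' : Nat.Coprime (Nat.card Z) Z.index := by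
    rw [Nat.card_zpowers, hk]
    exact Nat.Coprime.pow_right k hcop
  obtain ⟨S, hS⟩ := Subgroup.exists_right_complement'_of_coprime hcop'
  have hScard : Nat.card S = p ^ k := by
    rw [← hS.symm.index_eq_card, hk]
  have hSord : ∀ s ∈ S, (s : G) ^ (p ^ k) = 1 := by
    intro s hs
    have h1 : (⟨s, hs⟩ : S) ^ (p ^ k) = 1 := by
      rw [← hScard]
      exact pow_card_eq_one'
    have h2 := congrArg (fun y : S => (((y : E) : G))) h1
    simpa using h2
  have hSmul : ∀ s₁ ∈ S, ∀ s₂ ∈ S, piP π ((s₁ : G) * s₂) = piP π (s₁ : G) * piP π (s₂ : G) := by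
    intro s₁ hs₁ s₂ hs₂
    have hs₃ : s₁ * s₂ ∈ S := S.mul_mem hs₁ hs₂
    by_cases hpπ : p ∈ π
    · have hpi : ∀ s ∈ S, PiE π (s : G) := fun s hs =>
        PiE.of_pow_eq_one (hSord s hs) (fun q hq hd => by
          rw [(Nat.prime_dvd_prime_iff_eq hq hp).mp (hq.dvd_of_dvd_pow hd)]
          exact hpπ)
      have e : (s₁ : G) * s₂ = ((s₁ * s₂ : E) : G) := rfl
      rw [e, piP_of_piE (hpi _ hs₃), piP_of_piE (hpi _ hs₁), piP_of_piE (hpi _ hs₂)]
      rfl
    · have hsig : ∀ s ∈ S, SigE π (s : G) := fun s hs =>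
        SigE.of_pow_eq_one (hSord s hs) (fun q hq hd => by
          rw [(Nat.prime_dvd_prime_iff_eq hq hp).mp (hq.dvd_of_dvd_pow hd)]
          exact hpπ)
      have e : (s₁ : G) * s₂ = ((s₁ * s₂ : E) : G) := rfl
      rw [e, piP_of_sigE (hsig _ hs₃), piP_of_sigE (hsig _ hs₁), piP_of_sigE (hsig _ hs₂), mul_one]
  obtain ⟨⟨z₁, s₁⟩, h1⟩ := hS.2 e₁
  obtain ⟨⟨z₂, s₂⟩, h2⟩ := hS.2 e₂
  simp only at h1 h2
  have hc : ∀ y ∈ Z, ∀ x : E, Commute (y : G) (x : G) := by
    intro y hy x
    have := (Subgroup.mem_center_iff.mp (hZc y hy)) x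
    have h3 := congrArg (Subtype.val) this
    exact h3.symm
  set a : G := ((z₁ : E) : G) with ha
  set b : G := ((z₂ : E) : G) with hb
  set c : G := ((s₁ : E) : G) with hc'
  set d : G := ((s₂ : E) : G) with hd
  have h1' : (e₁ : G) = a * c := by
    rw [← h1]
    rfl
  have h2' : (e₂ : G) = b * d := by
    rw [← h2]
    rfl
  have hac : Commute a c := hc _ z₁.2 _
  have hbd : Commute b d := hc _ z₂.2 _
  have hbc : Commute b c := hc _ z₂.2 _
  have had : Commute a d := hc _ z₁.2 _
  have hab : Commute a b := hc _ z₁.2 _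
  set m := expP (G := G) π with hm
  have hsm : (c * d) ^ m = c ^ m * d ^ m := hSmul _ s₁.2 _ s₂.2
  rw [h1', h2']
  change (a * c * (b * d)) ^ m = (a * c) ^ m * (b * d) ^ m
  have e1 : a * c * (b * d) = (a * b) * (c * d) := by
    calc a * c * (b * d) = a * (c * b) * d := by group
      _ = a * (b * c) * d := by rw [hbc.eq]
      _ = (a * b) * (c * d) := by group
  have hCommute : Commute (a * b) (c * d) := (hac.mul_right had).mul_left (hbc.mul_right hbd)
  rw [e1, hCommute.mul_pow, hab.mul_pow, hsm, hac.mul_pow, hbd.mul_pow]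
  have : Commute (b ^ m) (c ^ m) := hbc.pow_pow _ _
  calc a ^ m * b ^ m * (c ^ m * d ^ m) = a ^ m * (b ^ m * c ^ m) * d ^ m := by
        simp only [mul_assoc]
    _ = a ^ m * (c ^ m * b ^ m) * d ^ m := by rw [this.eq]
    _ = a ^ m * c ^ m * (b ^ m * d ^ m) := by simp only [mul_assoc]

/-- The extension restricted to an elementary subgroup is a generalized character. -/
lemma star_elementary (hH : HallData π H) (hE : HomE π G) (hL : Loc π H) {χ : H → ℂ}
    (hχ : IsGeneralizedCharacter H χ) {E : Subgroup G} {p : ℕ} (hp : p.Prime)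
    (hE₀ : IsElementary p E) : IsGeneralizedCharacter E (fun e : E => star hH χ (e : G)) := by
  have hcl : IsClassFunction H χ := isClassFunction_of_isGenChar hχ
  let φ₀ : E →* G := MonoidHom.mk' (fun e : E => piP π (e : G)) (fun a b => piP_mul_elementary hp hE₀ a b)
  have hR : ∀ r ∈ φ₀.range, PiE π r := by
    rintro _ ⟨e, rfl⟩
    exact piE_piP π _
  obtain ⟨b, hb⟩ := hH.conj _ hR
  let φ₁ : E →* H := MonoidHom.mk' (fun e : E => ⟨b⁻¹ * φ₀ e * b, hb _ ⟨e, rfl⟩⟩) (fun x y => by
    apply Subtype.ext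
    simp only [map_mul, MulMemClass.coe_mul]
    group)
  have h := isGenChar_comp φ₁ hχ
  convert h using 1
  funext e
  simp only [Function.comp]
  apply star_eq hH hE hL hcl (a := b)
  rfl

/-- The extension is a generalized character. -/
lemma star_genChar [Fintype G] (hH : HallData π H) (hE : HomE π G) (hL : Loc π H) {χ : H → ℂ}
    (hχ : IsGeneralizedCharacter H χ) : IsGeneralizedCharacter G (star hH χ) := by
  apply isGenChar_of_restrict_elementary
  · intro g h
    exact star_class hH hE hL (isClassFunction_of_isGenChar hχ) h g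
  · intro E p hp hE₀
    exact star_elementary hH hE hL hχ hp hE₀

/-- The extension of an irreducible character has norm one. -/
lemma star_norm [Fintype G] (hH : HallData π H) (hE : HomE π G) (hL : Loc π H) {χ : H → ℂ}
    [Fintype H] (hχ : IsIrrCharacter H χ) : classInner (star hH χ) (star hH χ) = 1 := by
  have hcl : IsClassFunction H χ := isClassFunction_of_isIrrCharacter hχ
  let f : G → ℂ := fun x => star hH χ x * conj (star hH χ x)
  have hf : ∀ g u : G, f (g * u * g⁻¹) = f u := by
    intro g u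
    simp only [f, star_class hH hE hL hcl]
  have h1 := sum_eq hH hE hL f hf
  have h2 : ∀ x : G, f (piP π x) = f x := by
    intro x
    simp only [f, star_piP hH hE hL hcl]
  simp only [h2] at h1
  have hHf : ∀ x, x ∈ Hf H ↔ x ∈ H := by
    intro x
    simp [Hf]
  have h3 : ∑ v ∈ Hf H, f v = ∑ v : H, χ v * conj (χ v) := by
    rw [Finset.sum_subtype (Hf H) hHf f]
    apply Finset.sum_congr rfl
    intro v _
    simp only [f, star_of_mem hH hE hL hcl]
  have h4 : ((Hf H).card : ℂ) = (Nat.card H : ℂ) := by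
    rw [Finset.card_eq_of_equiv_fintype (Equiv.subtypeEquivRight hHf), Nat.card_eq_fintype_card]
  have h5 := classInner_self_of_isIrr hχ
  rw [classInner_def] at h5
  have hHne : (Nat.card H : ℂ) ≠ 0 := Nat.cast_ne_zero.mpr Nat.card_pos.ne'
  have h6 : ∑ v : H, χ v * conj (χ v) = (Nat.card H : ℂ) := by
    field_simp at h5
    linear_combination h5
  rw [h3, h6, h4] at h1
  have hGne : (Nat.card G : ℂ) ≠ 0 := Nat.cast_ne_zero.mpr Nat.card_pos.ne'
  rw [classInner_def]
  rw [Nat.card_eq_fintype_card] at hGne ⊢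
  have h7 : ∑ x : G, f x = (Fintype.card G : ℂ) := by
    apply mul_left_cancel₀ hHne
    rw [h1]
    ring
  change (Fintype.card G : ℂ)⁻¹ * ∑ x : G, f x = 1
  rw [h7]
  field_simp

/-- **Closure** under the local hypothesis. -/
theorem closed_of_loc (hH : HallData π H) (hE : HomE π G) (hL : Loc π H) : Closed π G := by
  classical
  letI := Fintype.ofFinite G
  letI : Fintype H := Fintype.ofFinite H
  have hirr : ∀ χ : IrrCharacter H, IsIrrCharacter G (star hH (χ : H → ℂ)) := by
    intro χ
    have hg := star_genChar hH hE hL (isGenChar_of_isIrr χ.2)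
    have hn := star_norm hH hE hL χ.2
    rcases norm_one hg hn with h | h
    · exact h
    · exfalso
      obtain ⟨n, hn0, hn1⟩ := exists_pos_deg_of_isIrr h
      obtain ⟨k, hk0, hk1⟩ := exists_pos_deg_of_isIrr χ.2
      have h1 := star_of_mem hH hE hL (isClassFunction_of_isIrrCharacter χ.2) (1 : H)
      simp only [OneMemClass.coe_one] at h1
      have h2 : (-star hH (χ : H → ℂ)) 1 = -((k : ℂ)) := by
        rw [Pi.neg_apply, h1, hk1]
      rw [h2] at hn1
      have h3 : ((n + k : ℕ) : ℂ) = 0 := by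
        push_cast
        rw [← hn1]
        ring
      have h4 : n + k = 0 := by exact_mod_cast h3
      omega
  refine ⟨⨅ χ : IrrCharacter H, charKer (isCharacter_of_isIrrCharacter (hirr χ)), ?_⟩
  intro x
  rw [Subgroup.mem_iInf]
  simp only [mem_charKer]
  have hs : ∀ χ : IrrCharacter H, star hH (χ : H → ℂ) x =
      (χ : H → ℂ) ⟨(conjEl hH x)⁻¹ * piP π x * conjEl hH x, conjEl_spec hH x⟩ := fun χ => rfl
  have hs1 : ∀ χ : IrrCharacter H, star hH (χ : H → ℂ) 1 = (χ : H → ℂ) 1 := by
    intro χ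
    have := star_of_mem hH hE hL (isClassFunction_of_isIrrCharacter χ.2) (1 : H)
    simpa using this
  constructor
  · intro h
    have hv : (⟨(conjEl hH x)⁻¹ * piP π x * conjEl hH x, conjEl_spec hH x⟩ : H) = 1 := by
      apply eq_one_of_forall_irr
      intro χ
      rw [← hs χ, ← hs1 χ]
      exact h χ
    have hv' : (conjEl hH x)⁻¹ * piP π x * conjEl hH x = 1 := congrArg Subtype.val hv
    have hp : piP π x = 1 := by
      have : piP π x = conjEl hH x * ((conjEl hH x)⁻¹ * piP π x * conjEl hH x) * (conjEl hH x)⁻¹ := by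
        group
      rw [this, hv']
      group
    exact piP_eq_one_iff.mp hp
  · intro hσ χ
    have hp : piP π x = 1 := piP_eq_one_iff.mpr hσ
    rw [hs χ, hs1 χ]
    have e : (⟨(conjEl hH x)⁻¹ * piP π x * conjEl hH x, conjEl_spec hH x⟩ : H) = 1 := by
      apply Subtype.ext
      simp only [hp, mul_one, inv_mul_cancel, OneMemClass.coe_one]
    rw [e]

/-- **Main theorem**. -/
theorem main_closed (π : Set ℕ) : ∀ (n : ℕ) (G : Type u) [Group G] [Finite G] (H : Subgroup G),
    Nat.card G = n → HallData π H → HomE π G → Closed π G := by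
  intro n
  induction n using Nat.strong_induction_on with
  | _ n ih =>
    intro G _ _ H hn hH hE
    apply closed_of_loc hH hE
    intro u hu p k hp hk hc
    have hW := hallData_centralizer hH hE hp hu hk
    have hlt : Nat.card (Subgroup.centralizer ({u} : Set G)) < n := by
      rw [← hn]
      apply lt_of_le_of_ne (Subgroup.card_le_card_group _)
      intro he
      apply hc
      have htop := Subgroup.eq_top_of_card_eq _ he
      rw [Subgroup.mem_center_iff]
      intro g
      have hg : g ∈ Subgroup.centralizer ({u} : Set G) := by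
        rw [htop]
        trivial
      exact Subgroup.mem_centralizer_singleton_iff.mp hg
    have hcl := ih _ hlt (Subgroup.centralizer ({u} : Set G)) (H.subgroupOf _) rfl hW (homE_subgroup hE _)
    exact localS_of_closed hW hcl

end Cfsg.Agent.Lib.PiHom
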